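import Cfsg.Agent.Lib.MI.P4

/-!
The minimal index of a proper subgroup of a symplectic group over the field with two elements.
-/

set_option autoImplicit false

namespace Cfsg.Agent.MI

open Module Cfsg.Agent.Forms Cfsg.Agent.Forms.Form Cfsg.Agent.Cls Cfsg.Agent.Deg Finset

variable {F : Type*} [Field F] {V : Type*} [AddCommGroup V] [Module F V]
  {f : Form (Param.sp F) V} {u y z v w e p x : V} {l : F}
  {X : Type*} [MulAction f.Isom X] {c : Chr (Param.sp F)} {ω ω' : X} {Y Y' : Finset X}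

variable (f) in
/-- quadratic functions polarising to the symplectic form -/
def Pol (φ : V → F) : Prop := ∀ v w, φ (v + w) = φ v + φ w + f.B w v

open Classical in
/-- the sign of an element of the field with two elements -/
noncomputable def sg (a : F) : ℤ := if a = 0 then 1 else -1

theorem sg_zero : sg (0 : F) = 1 := by simp [sg]

theorem sg_one : sg (1 : F) = -1 := by simp [sg]

theorem Pol.zero {φ : V → F} (h : Pol f φ) : φ 0 = 0 := by simpa using h 0 0

variable [Finite F]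

theorem eq_zero_or_one (hq : Nat.card F = 2) (a : F) : a = 0 ∨ a = 1 := by
  obtain ⟨y, -, hy⟩ := (Nat.card_eq_two_iff' (0 : F)).1 hq
  by_cases h : a = 0
  exacts [Or.inl h, Or.inr ((hy a h).trans (hy 1 one_ne_zero).symm)]

theorem two_eq_zero_of_card (hq : Nat.card F = 2) : (2 : F) = 0 :=
  (eq_zero_or_one hq 2).resolve_right fun h => one_ne_zero (by linear_combination h)

theorem sg_add (hq : Nat.card F = 2) (a b : F) : sg (a + b) = sg a * sg b := by
  rcases eq_zero_or_one hq a with rfl | rfl <;> rcases eq_zero_or_one hq b with rfl | rfl <;>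
    simp [sg_zero, sg_one, one_add_one_eq_two, two_eq_zero_of_card hq]

theorem Pol.str {φ : V → F} (hq : Nat.card F = 2) (h : Pol f φ) (hx : φ x = 0) (v : V) :
    φ ((str f x 1).1 v) = φ v + f.B v x := by
  rw [str_apply, one_mul]
  rcases eq_zero_or_one hq (f.B v x) with e | e
  · simp [e]
  · rw [e, one_smul, h, hx, f.sp_symm, e]
    linear_combination -two_eq_zero_of_card hq

theorem Pol.sum_shift [Fintype V] {φ : V → F} (hq : Nat.card F = 2) (h : Pol f φ) (x : V) :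
    ∑ v, sg (φ v + f.B v x) = sg (φ x) * ∑ v, sg (φ v) := by
  rw [← Equiv.sum_comp (Equiv.addRight x) fun v => sg (φ v), mul_sum]
  refine sum_congr rfl fun v _ => ?_
  rw [← sg_add hq, Equiv.coe_addRight, h, f.sp_symm v x]
  congr 1
  linear_combination (f.B v x - φ x) * two_eq_zero_of_card hq

theorem Pol.sum_sq [Fintype V] {φ : V → F} (hq : Nat.card F = 2) (hf : f.Nondeg) (h : Pol f φ) :
    (∑ v, sg (φ v)) ^ 2 = Nat.card V := by
  have e1 : ∀ v, v ≠ 0 → ∑ x, sg (φ v + f.B v x) = 0 := fun v hv => by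
    obtain ⟨y, hy⟩ := hf.exists_eq_one hv
    have := Equiv.sum_comp (Equiv.addRight y) fun x => sg (φ v + f.B v x)
    simp only [Equiv.coe_addRight, B_add_right, hy, ← add_assoc, sg_add hq _ 1, sg_one, mul_neg,
      mul_one, sum_neg_distrib] at this
    linarith
  rw [sq, sum_mul]
  simp only [← h.sum_shift hq]
  rw [sum_comm, sum_eq_single 0 (fun v _ => e1 v) (by simp)]
  simp [h.zero, sg_zero]

theorem two_mul_card_zero [Fintype V] (φ : V → F) :
    2 * (Nat.card {v // φ v = 0} : ℤ) = Nat.card V + ∑ v, sg (φ v) := by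
  classical
  rw [Nat.card_eq_fintype_card, Fintype.card_subtype, Nat.card_eq_fintype_card, ← card_univ,
    card_filter, card_eq_sum_ones]
  push_cast
  rw [mul_sum, ← sum_add_distrib]
  refine sum_congr rfl fun v _ => ?_
  by_cases h : φ v = 0 <;> simp [h, sg]

theorem Pol.sum_eq [Fintype V] {φ : V → F} (hq : Nat.card F = 2) (hf : f.Nondeg) (h : Pol f φ)
    {j : ℕ} (hj : finrank F V = 2 * j) : ∑ v, sg (φ v) = 2 ^ j ∨ ∑ v, sg (φ v) = -2 ^ j := by
  refine sq_eq_sq_iff_eq_or_eq_neg.1 ?_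
  rw [h.sum_sq hq hf, Module.natCard_eq_pow_finrank (K := F), hq, hj]
  push_cast
  ring

theorem sp_index_two [Finite V] (hq : Nat.card F = 2) (hf : f.Nondeg) {j : ℕ}
    (hj : finrank F V = 2 * (j + 2)) {φ : V → F} (h : Pol f φ) : ∃ H : Subgroup f.Isom,
      Subgroup.center _ ≤ H ∧ (H.index : ℤ) = 2 ^ (j + 1) * (2 ^ (j + 2) - 1) := by
  cases nonempty_fintype V
  have : Nontrivial V := (finrank_pos_iff (R := F)).1 (by omega)
  obtain ⟨φ, h, e1⟩ : ∃ φ, Pol f φ ∧ ∑ v, sg (φ v) = -2 ^ (j + 2) := by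
    refine (h.sum_eq hq hf hj).elim (fun e => ?_) fun e => ⟨φ, h, e⟩
    obtain ⟨x, hx⟩ : ∃ x, φ x = 1 := by
      by_contra hc
      have : ∀ x, φ x = 0 := fun x => (eq_zero_or_one hq _).resolve_right fun e => hc ⟨x, e⟩
      obtain ⟨v, hv⟩ := exists_ne (0 : V)
      exact hv (hf v fun w => by simpa [this] using (h w v).symm)
    refine ⟨fun v => φ v + f.B v x, fun v w => ?_, by rw [h.sum_shift hq, hx, sg_one, e, neg_one_mul]⟩
    simp only [h v w, B_add_left]
    ring
  let _ : MulAction f.Isom (V → F) := arrowAction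
  have e2 : MulAction.orbit f.Isom φ = (fun x v => φ v + f.B v x) '' {x | φ x = 0} := by
    ext ψ
    constructor
    · rintro ⟨g, rfl⟩
      obtain ⟨x, hx⟩ := hf.exists_repr
        { toFun := fun v => φ (g⁻¹.1 v) - φ v
          map_add' := fun v w => by rw [map_add, h, h, Isom.map_B]; ring
          map_smul' := fun a v => by
            rcases eq_zero_or_one hq a with rfl | rfl <;> simp [h.zero] }
      have e3 : ∀ v, φ v + f.B v x = φ (g⁻¹.1 v) := fun v => by rw [hx]; simp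
      refine ⟨x, (eq_zero_or_one hq _).resolve_right fun e => ?_, funext e3⟩
      have := h.sum_shift hq x
      simp only [e3] at this
      rw [e, sg_one, show ∑ v, sg (φ (g⁻¹.1 v)) = _ from
        Equiv.sum_comp g⁻¹.1.toEquiv fun v => sg (φ v), e1] at this
      have : (0 : ℤ) < 2 ^ (j + 2) := by positivity
      linarith
    · rintro ⟨x, hx, rfl⟩
      exact ⟨(str f x 1)⁻¹, funext fun v => h.str hq hx v⟩
  refine ⟨MulAction.stabilizer _ φ, fun z hz => funext fun v => ?_, ?_⟩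
  · obtain ⟨a, ha⟩ := (hf.sp_mem_center_iff _).1 (inv_mem hz)
    rcases eq_zero_or_one hq a with rfl | rfl
    · obtain ⟨v, hv⟩ := exists_ne (0 : V)
      exact absurd (by simpa using ha v) hv
    · exact congrArg φ ((ha v).trans (one_smul _ _))
  · have e3 := two_mul_card_zero φ
    rw [MulAction.index_stabilizer, e2, Set.ncard_image_of_injective
      (f := fun x v => φ v + f.B v x) _ fun x x' e =>
      hf.ext_right fun v => add_left_cancel (congrFun e v)]
    rw [e1, Module.natCard_eq_pow_finrank (K := F) (V := V), hq, hj] at e3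
    push_cast at e3
    change (Nat.card {v // φ v = 0} : ℤ) = _
    refine mul_left_cancel₀ two_ne_zero (e3.trans ?_)
    ring

variable [Finite V]

theorem mu_le_card {P : Param F} {f : Form P V} [MulAction f.Isom X] {c : Chr P} (hu : f.Q u = 0)
    (hu0 : u ≠ 0) : mu c f u Y y ≤ Y.card := by
  classical
  refine (sum_le_card_nsmul _ _ 1 fun ω _ => ?_).trans (by simpa using card_filter_le _ _)
  exact div_le_one_of_le₀ (Nat.cast_le.2 (card_le_card_Bl hu hu0)) (Nat.cast_nonneg _)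

omit [Finite V] in
theorem not_fx_one (hq : Nat.card F = 2) (ht : tau f u ω ≠ Lam (Param.sp F)) : ¬ Fx f u 0 1 ω :=
  fun h => ht (tau_eq_Lam_iff.2 fun l => by
    rcases eq_zero_or_one hq l with rfl | rfl
    exacts [Fx.zero u ω, h])

omit [Finite V] in
theorem Fx.unique (hq : Nat.card F = 2) (ht : tau f u ω ≠ Lam (Param.sp F)) {l' : F}
    (h : Fx f u v l ω) (h' : Fx f u v l' ω) : l = l' :=
  sub_eq_zero.1 ((eq_zero_or_one hq _).resolve_right fun e =>
    not_fx_one hq ht (e ▸ h.sub (f.sp_Q u) h'))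

theorem Sys.card_quad (S : Sys f ⊤ Y) (hq : Nat.card F = 2) {j : ℕ} (hj : finrank F V = 2 * j + 2)
    (hu0 : u ≠ 0) (hY : PInv f ⊤ u Y') (hω : ω ∈ Y') (ht : tau f u ω ≠ Lam (Param.sp F))
    (hS : ∀ v, f.B v u = 0 → v ∈ Sb f u ω) : (4 : ℤ) ^ j - 2 ^ j ≤ Y'.card := by
  obtain ⟨c⟩ := exists_chr_sp F
  have hu := f.sp_Q u
  obtain ⟨e, he⟩ := S.nd.exists_hypPair hu hu0
  have h0 := fun v : f.orth (Submodule.span F {u, e}) => (mem_orth_pair.1 v.2).1
  choose! φ hφ using fun v hv => (mem_Sb hu).1 (hS v hv)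
  have h1 : ∀ v w, f.B v u = 0 → f.B w u = 0 → φ (v + w) = φ v + φ w + f.B w v := fun v w hv hw =>
    (hφ _ (by simp [hv, hw])).unique hq ht ((hφ v hv).mul hu (hφ w hw))
  have hP : Pol (f.restrict (f.orth (Submodule.span F {u, e}))) fun v => φ v :=
    fun v w => h1 _ _ (h0 v) (h0 w)
  have k1 : ∀ x : f.orth (Submodule.span F {u, e}), (str f x 1).1 u = (1 : F) • u := fun x => by
    rw [str_orth (f.B_eq_zero_symm (h0 x)), one_smul]
  have k2 : ∀ x : f.orth (Submodule.span F {u, e}), tau f u (str f x 1 • ω) ≠ Lam _ := fun x h => by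
    have := tau_map (u := u) (ω := ω) (str f x 1)
    rw [k1, one_smul, h] at this
    exact ht this.symm
  have k3 : ∀ x v : f.orth (Submodule.span F {u, e}), φ x = 0 →
      Fx f u v (φ v + f.B v x) (str f x 1 • ω) := fun x v hx => by
    have := (hφ _ (h0 ((str (f.restrict _) x (1 : F)).1 v))).map (str f x 1)
    rw [hP.str hq hx, k1, one_smul] at this
    refine this.congr ?_ rfl
    simp only [str_apply, Submodule.coe_add, Submodule.coe_smul, B_add_left, B_smul_left, sp_B_self,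
      restrict_B, mul_zero, add_zero, one_mul, add_assoc, ← add_smul, ← two_mul,
      two_eq_zero_of_card hq, zero_mul, zero_smul]
  have e1 := mu_ge_family (c := c) S.nd hu hu0 (S.cl hu hY)
    (fun x : {x : f.orth (Submodule.span F {u, e}) // φ x = 0} => str f x 1 • ω)
    (fun x => hY _ trivial 1 one_ne_zero (k1 x) ω hω) (fun _ => self_mem_Bl hu)
    (fun x x' h => Subtype.ext ((he.restrict_orth_nondeg S.nd).ext_right fun v => add_left_cancel
      (((k3 x v x.2).char_two (two_eq_zero_of_card hq) h).unique hq (k2 x') (k3 x' v x'.2))))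
    fun x => two_le_wt (k2 x)
  cases nonempty_fintype (f.orth (Submodule.span F {u, e}))
  have e2 := two_mul_card_zero fun v : f.orth (Submodule.span F {u, e}) => φ v
  have e3 : finrank F (f.orth (Submodule.span F {u, e})) = 2 * j := by
    have := he.finrank_orth S.nd; omega
  have e4 := hP.sum_eq hq (he.restrict_orth_nondeg S.nd) e3
  have e5 : (Nat.card {x : f.orth (Submodule.span F {u, e}) // φ x = 0} * 2 : ℤ) ≤ Y'.card := by
    exact_mod_cast e1.trans (mu_le_card hu hu0)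
  rw [Module.natCard_eq_pow_finrank (K := F) (V := f.orth _), hq, e3, pow_mul] at e2
  push_cast at e2
  have : (0 : ℤ) < 2 ^ j := by positivity
  rcases e4 with e4 | e4 <;> linarith

theorem Sys.sp_two_le (S : Sys f ⊤ Y) (hq : Nat.card F = 2) {j : ℕ} (hj : finrank F V = 2 * j + 2)
    (h2j : 2 ≤ j) : (2 : ℤ) ^ j * (2 ^ (j + 1) - 1) ≤ Y.card := by
  classical
  by_contra hB
  push Not at hB
  obtain ⟨c⟩ := exists_chr_sp F
  have h2 := two_eq_zero_of_card hq
  have e1 : ∀ u, u ≠ 0 → (Nat.card (f.orth (F ∙ u)) : ℤ) = 2 * 4 ^ j := fun u hu0 => by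
    rw [card_perp_pow S.nd hu0 hj, hq, pow_succ', pow_mul]
    norm_num
  have e2 : (2 : ℤ) ^ j * (2 ^ (j + 1) - 1) = 2 * 4 ^ j - 2 ^ j := by
    rw [show (4 : ℤ) = 2 * 2 from rfl, mul_pow]; ring
  have hlt : ∀ u, u ≠ 0 → ∀ y ∈ Cs f u, mu c f u Y y < 2 := fun u hu0 y hy => by
    by_contra h
    have a1 := (mul_le_mul_of_nonneg_right (not_lt.1 h) (by positivity)).trans
      (sp_mu_le S.nd hu0 (S.pinv u) hy)
    have a2 : (2 : ℤ) * Nat.card (f.orth (F ∙ u)) ≤ Nat.card F * Y.card := by exact_mod_cast a1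
    rw [e1 u hu0, hq] at a2
    have : (0 : ℤ) < 2 ^ j := by positivity
    push_cast at a2
    linarith
  have hS : ∀ ω ∈ Y, ∀ u, u ≠ 0 → tau f u ω ≠ Lam (Param.sp F) → ∀ v, f.B v u = 0 → v ∈ Sb f u ω :=
    fun ω hω u hu0 ht v => mem_Sb_of_Bl_le (c := c) S.nd fun y hy => by_contra fun hy' =>
      ((mu_ge_one S.nd (f.sp_Q u) hu0 (S.cl (f.sp_Q u) (S.pinv u)) hω hy).trans_lt
        (hlt u hu0 y (mem_Cs_of_Bl hy hy'))).not_ge (by exact_mod_cast two_le_wt ht)
  obtain ⟨ω, hω⟩ := S.ne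
  have sw : ∀ u x, f.B x u = 0 → Fx f x u 0 ω → Fx f u x 0 ω := fun u x h1 h => by
    simpa using Fx.swap (a := 1) (f.sp_Q x) h1 (by rwa [one_smul])
  have hA : ∀ u, u ≠ 0 → tau f u ω ≠ Lam (Param.sp F) → ∀ x ∈ Cs f u,
      tau f x ω = Lam (Param.sp F) → ¬ Fx f u x 0 ω := fun u hu0 ht x hx h h' =>
    one_ne_zero (Fx.unique hq ht (by simpa using (fx_of_perp_le (s := 0) h2 S.nd (hS ω hω u hu0 ht)
      hu0 hx.2.2 (f.B_eq_zero_symm hx.1) (by simpa using tau_eq_Lam_iff.1 h 1) one_ne_zero 1)) h')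
  obtain ⟨u, hu0, ht⟩ := S.exists_tau_ne hω
  have hu := f.sp_Q u
  obtain ⟨w, hw, h4⟩ := exists_not_fx h2 S.nd (by omega) hu0 ht
  have hw0 : w ≠ 0 := fun h => hw.2.2 (h ▸ zero_mem _)
  obtain ⟨v, v1, z, z1, b1⟩ := exists_B_ne_perp S.nd (Submodule.span F {u, w})
    (by have := finrank_span_pair_le (F := F) u w; omega)
  obtain ⟨v1, v2⟩ := mem_orth_pair.1 v1
  obtain ⟨z1, z2⟩ := mem_orth_pair.1 z1
  replace b1 := (eq_zero_or_one hq _).resolve_left b1
  have hT : tau f w ω = Lam (Param.sp F) := by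
    by_contra h
    obtain ⟨l, g, g1, g2⟩ := (mem_Sb hu).1 (hS ω hω u hu0 ht z z1)
    obtain ⟨m, hm⟩ := (mem_Sb (f.sp_Q w)).1 (hS ω hω w hw0 h v v2)
    have := hm.map_fix g2
    rw [g1.apply_of_orth hw.1 (f.B_eq_zero_symm z2), IsE_apply_orth g1 v1, b1] at this
    refine h4 (sw u w hw.1 (((hm.inv (f.sp_Q w)).mul (f.sp_Q w) this).congr (by simp) ?_))
    simp [sp_B_self, f.B_eq_zero_symm v1]
  have hC : ∀ x, x ≠ 0 → tau f x ω ≠ Lam (Param.sp F) → w ∈ Cs f x → x ∉ Sb f w ω :=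
    fun x hx0 h1 h3 h => hA x hx0 h1 w h3 hT
      (sw x w h3.1 (fx_of_tau (f.sp_Q w) hT h (f.sp_isLam _ _)))
  obtain ⟨y, y1, y2⟩ : ∃ y ∈ Bl c f w ω, y ∉ F ∙ w := by
    by_contra h
    exact hC u hu0 ht hw (mem_Sb_of_Bl_le (c := c) S.nd (by simpa using h) (f.B_eq_zero_symm hw.1))
  rcases S.sp_line_or_top hw0 (S.pinv w) hω y1 y2 fun y hy =>
    (hlt w hw0 y hy).trans_le (by linarith [one_le_wt (f := f) w ω]) with h | h
  · have hD : ∀ x, x ≠ 0 → tau f x ω ≠ Lam (Param.sp F) → w ∈ Cs f x → f.B x y = 1 :=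
      fun x hx0 h1 h3 => (eq_zero_or_one hq _).resolve_left fun e =>
        hC x hx0 h1 h3 (mem_Sb_of_line S.nd h (f.B_eq_zero_symm h3.1) e)
    have hE : ∀ x, f.B x u = 0 → f.B x w = 0 → f.B x z = 1 → Fx f u x 0 ω → f.B x y = 1 :=
      fun x x1 x2 x3 x4 => by
      have a1 := not_mem_span_of_B (w := x) (f.B_eq_zero_symm z1) (by simp [x3])
      exact hD x (fun e => a1 (e ▸ zero_mem _)) (fun e => hA u hu0 ht x ⟨x1, f.sp_Q x, a1⟩ e x4)
        ⟨f.B_eq_zero_symm x2, f.sp_Q w, not_mem_span_symm hw0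
          (not_mem_span_of_B (f.B_eq_zero_symm z2) (by simp [x3]))⟩
    obtain ⟨x, x1, x2, x3, x4⟩ : ∃ x, f.B x u = 0 ∧ f.B x w = 0 ∧ f.B x z = 1 ∧ Fx f u x 0 ω := by
      obtain ⟨l, hl⟩ := (mem_Sb hu).1 (hS ω hω u hu0 ht v v1)
      obtain ⟨m, hm⟩ := (mem_Sb hu).1 (hS ω hω u hu0 ht w hw.1)
      rcases eq_zero_or_one hq l with rfl | rfl
      · exact ⟨v, v1, v2, b1, hl⟩
      rcases eq_zero_or_one hq m with rfl | rfl
      · exact absurd hm h4
      exact ⟨v + w, by simp [v1, hw.1], by simp [v2, sp_B_self], by simp [b1, f.B_eq_zero_symm z2],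
        (hl.mul hu hm).congr rfl (by rw [f.B_eq_zero_symm v2]; linear_combination h2)⟩
    have a1 := hE (x + u) (by simp [x1, sp_B_self]) (by simp [x2, f.B_eq_zero_symm hw.1])
      (by simp [x3, f.B_eq_zero_symm z1]) ((x4.mul hu (fx_self h2 1)).congr (by rw [one_smul])
        (by simp [f.B_eq_zero_symm x1]))
    rw [B_add_left, hE x x1 x2 x3 x4, hD u hu0 ht hw] at a1
    exact one_ne_zero (by linear_combination a1)
  · have hp : ∀ k ∈ (⊤ : Subgroup f.Isom), ∀ a : F, a ≠ 0 → k.1 w = a • w → ∀ ω : X,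
        tau f w ω = Lam (Param.sp F) → tau f w (k • ω) = Lam (Param.sp F) :=
      fun k _ a ha hk ω h => tau_conj_eq_Lam (f.sp_Q w) h hk ha
    have a1 := card_ge_orbit (c := c) S.nd (f.sp_Q w) hw0 (S.cl (f.sp_Q w) ((S.pinv w).filter hp))
      (mem_filter.2 ⟨hω, hT⟩)
    rw [card_Bl_of_Sb_le (f.sp_Q w) h, hq] at a1
    replace a1 := (Nat.le_mul_of_pos_right _ (wt_pos w ω)).trans a1
    obtain ⟨k, a, ha, k1, k2⟩ := S.exists_conj hω hu hu0 (f.sp_Q w) hw0
    have a2 : tau f w (k • ω) ≠ Lam (Param.sp F) := fun e => ht (by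
      simpa using tau_conj_eq_Lam (f.sp_Q w) e (k := k⁻¹) (a := a⁻¹) (u' := u) (by
        rw [eq_inv_smul_iff₀ ha, ← map_smul, ← k1, Isom.inv_apply]) (inv_ne_zero ha))
    have a3 := S.card_quad hq hj hw0 ((S.pinv w).filter_not hp) (mem_filter.2 ⟨k2, a2⟩) a2
      (hS _ k2 w hw0 a2)
    have a4 := card_filter_add_card_filter_not (s := Y) fun ω => tau f w ω = Lam (Param.sp F)
    zify at a1 a4
    rw [e1 w hw0] at a1
    linarith

end Cfsg.Agent.MI
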