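import Cfsg.Agent.Lib.MI.U5
import Cfsg.Agent.Lib.MI.P4
import Cfsg.Agent.Lib.Forms.H90

/-!
Transitive actions of the four-dimensional special unitary groups: the orbits of the Eichler group.
-/

set_option autoImplicit false

namespace Cfsg.Agent.MI

open Module Cfsg.Agent.Forms Cfsg.Agent.Forms.Form Cfsg.Agent.Cls Cfsg.Agent.Deg Finset

variable {F : Type*} [Field F] {V : Type*} [AddCommGroup V] [Module F V]

theorem mu_le_of_imp {P : Param F} {c : Chr P} {f : Form P V} {X : Type*} [MulAction f.Isom X]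
    {u y y' : V} {Y : Finset X} (h : ∀ ω ∈ Y, y ∈ Bl c f u ω → y' ∈ Bl c f u ω) :
    mu c f u Y y ≤ mu c f u Y y' := by
  classical
  unfold mu
  refine sum_le_sum_of_subset_of_nonneg (fun ω hω => ?_) fun _ _ _ => by positivity
  simp only [mem_filter] at hω ⊢
  exact ⟨hω.1, h ω hω.1 hω.2⟩

variable [Fintype F] {q : ℕ} {hF : Fintype.card F = q ^ 2} {f : Form (uP hF) V} [Finite V]
  {X : Type*} [MulAction f.Isom X] {c : Chr (uP hF)} {u y v : V} {ω : X} {Y Y' : Finset X}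

theorem exists_h90 {z : F} (hz : z * frobq hF z = 1) : ∃ b, b ≠ 0 ∧ b = z * frobq hF b := by
  obtain ⟨a, ha⟩ := frobq_ne hF
  obtain ⟨b, h1, h2⟩ := hilbert90 (frobq hF) (frobq_frobq hF) (ω := a)
    (sub_ne_zero.2 ha.symm).isUnit hz
  exact ⟨b, h1.ne_zero, h2⟩

theorem su4_perp (hf : f.Nondeg) (h4 : finrank F V = 4) (hu : f.Q u = 0) (hu0 : u ≠ 0)
    (hy : y ∈ Cs f u) {a : V} (h1 : f.B a u = 0) (h2 : f.B a y = 0) :
    ∃ s t : F, s • u + t • y = a := by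
  have e1 : finrank F (Submodule.span F {u, y}) = 2 := by
    have := finrank_span_eq_card (LinearIndependent.pair_iff' hu0 |>.2 fun a e =>
      hy.2.2 (Submodule.mem_span_singleton.2 ⟨a, e⟩))
    rwa [Matrix.range_cons_cons_empty] at this
  have e2 : Submodule.span F {u, y} ≤ f.orth (Submodule.span F {u, y}) := by
    rw [Submodule.span_le]
    rintro _ (rfl | rfl)
    · exact mem_orth_pair.2 ⟨f.B_self_of_Q hu, f.B_eq_zero_symm hy.1⟩
    · exact mem_orth_pair.2 ⟨hy.1, f.B_self_of_Q hy.2.1⟩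
  rw [← Submodule.mem_span_pair, Submodule.eq_of_le_of_finrank_le e2
    (by have := hf.finrank_add_orth (Submodule.span F {u, y}); omega)]
  exact mem_orth_pair.2 ⟨h1, h2⟩

theorem su_class_sing (hf : f.Nondeg) (hu : f.Q u = 0) (hu0 : u ≠ 0) (hy : y ∈ Cs f u) {u' y' : V}
    (hu' : f.Q u' = 0) (hu0' : u' ≠ 0) (hy' : y' ∈ Cs f u') : ∃ b : F, b ≠ 0 ∧ ∀ a c : F,
      a * c = b → ∃ k ∈ f.SIsom, k.1 u = a • u' ∧ k.1 y = c • y' := by
  obtain ⟨g, e1, e2⟩ := hf.witt_two (x := u) (x' := y) (y := u') (y' := y')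
    (LinearIndependent.pair_iff' hu0 |>.2 fun a e => hy.2.2 (Submodule.mem_span_singleton.2 ⟨a, e⟩))
    (LinearIndependent.pair_iff' hu0' |>.2 fun a e =>
      hy'.2.2 (Submodule.mem_span_singleton.2 ⟨a, e⟩))
    (by rw [f.B_self_of_Q hu, f.B_self_of_Q hu'])
    (by rw [f.B_self_of_Q hy.2.1, f.B_self_of_Q hy'.2.1])
    (by rw [f.B_eq_zero_symm hy.1, f.B_eq_zero_symm hy'.1]) (by rw [hu, hu'])
    (by rw [hy.2.1, hy'.2.1])
  obtain ⟨b, hb, hb'⟩ := exists_h90 (hF := hF) (hf.det_mul_σ_det g⁻¹)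
  refine ⟨b, hb, fun a c e => ?_⟩
  have ha : a ≠ 0 := left_ne_zero_of_mul (e ▸ hb)
  have hc : c ≠ 0 := right_ne_zero_of_mul (e ▸ hb)
  obtain ⟨z, h1, h2⟩ := exists_hyp_perp hf hy
  obtain ⟨w, h3, h4⟩ := exists_hyp_perp hf (u := y) (y := u)
    ⟨f.B_eq_zero_symm hy.1, hu, not_mem_span_symm hu0 hy.2.2⟩
  refine ⟨g * h1.hscale c hc * h3.hscale a ha, ?_, ?_, ?_⟩
  · rw [SIsom, MonoidHom.mem_ker, Units.ext_iff, map_mul, map_mul, Units.val_mul, Units.val_mul,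
      det_hscale, det_hscale]
    rw [map_inv, Units.val_inv_eq_inv_val] at hb'
    have h5 := (f.detHom g).ne_zero
    have h6 : frobq hF a ≠ 0 := (map_ne_zero _).2 ha
    have h7 : frobq hF c ≠ 0 := (map_ne_zero _).2 hc
    rw [← e, map_mul] at hb'
    simp only [Param.unit_σ, Units.val_one]
    field_simp at hb' ⊢
    linear_combination hb'
  · rw [Isom.mul_apply, Isom.mul_apply, h3.hscale_u, map_smul, h1.hscale_of_orth c hc
      (f.B_eq_zero_symm hy.1) (f.B_eq_zero_symm h2), map_smul, e1]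
  · rw [Isom.mul_apply, Isom.mul_apply, h3.hscale_of_orth a ha hy.1 (f.B_eq_zero_symm h4),
      h1.hscale_u, map_smul, e2]

theorem su_class_two (h2 : (2 : F) = 0) (hf : f.Nondeg) (hu : f.Q u = 0) (hu0 : u ≠ 0)
    (hy : y ∈ Cs f u) {y' : V} (hy' : y' ∈ Cs f u) :
    ∃ k ∈ f.SIsom, ∃ a : F, a ≠ 0 ∧ k.1 u = a • u ∧ k.1 y = a • y' := by
  obtain ⟨b, hb, h⟩ := su_class_sing hf hu hu0 hy hu hu0 hy'
  obtain ⟨a, rfl⟩ := exists_mul_self h2 b
  obtain ⟨k, hk, e⟩ := h a a rfl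
  exact ⟨k, hk, a, left_ne_zero_of_mul hb, e⟩

theorem su4_class_ns (hf : f.Nondeg) (h4 : finrank F V = 4) (hu : f.Q u = 0) (hu0 : u ≠ 0)
    (hy : y ∈ Cn f u) {y' : V} (hy' : y' ∈ Cn f u) :
    ∃ k ∈ f.SIsom, ∃ a : F, a ≠ 0 ∧ k.1 u = a • u ∧ k.1 y = a • y' := by
  refine su_class hf hu hu0 hy.1 hy'.1 (not_mem_span_of_Q hu hy.2) (not_mem_span_of_Q hu hy'.2)
    (by simp [hy.2, hy'.2]) ?_
  obtain ⟨x, h1, h2⟩ := exists_aniso_orth hf (Submodule.span F {u, y}) fun h => by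
    have e := Submodule.eq_of_le_of_finrank_le h (by
      have := hf.finrank_add_orth (Submodule.span F {u, y})
      have := finrank_span_pair_le (F := F) u y
      omega)
    have : y ∈ f.orth (Submodule.span F {u, y}) := e.ge (Submodule.subset_span (by simp))
    exact hy.2 (by rw [unit_Q]; exact (mem_orth_pair.1 this).2)
  exact ⟨x, h2, mem_orth_pair.1 h1⟩

theorem su4_counts (hf : f.Nondeg) (h4 : finrank F V = 4) (hu : f.Q u = 0) (hu0 : u ≠ 0) :
    ((Cs f u).ncard : ℤ) = q ^ 2 * (q + 1) * (q ^ 2 - 1) ∧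
      ((Cn f u).ncard : ℤ) = q ^ 3 * (q - 1) * (q ^ 2 - 1) := by
  obtain ⟨-, h1, h2⟩ := su_counts hf (k := 2) h4 hu hu0
  exact ⟨by rw [h1]; ring, by rw [h2]; ring⟩

theorem two_eq_zero_of_q (hF : Fintype.card F = q ^ 2) (hq : q = 2) : (2 : F) = 0 := by
  have := FiniteField.cast_card_eq_zero F
  rw [hF, hq] at this
  exact pow_eq_zero_iff two_ne_zero |>.1 (by exact_mod_cast this)

theorem Q_of_mem_Sb (h2 : (2 : F) = 0) (hu : f.Q u = 0) (ht : tau f u ω = ⊥) (hv : v ∈ Sb f u ω) :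
    f.Q v = 0 := by
  obtain ⟨l, h⟩ := hv hu
  have := ((h.mul hu h).congr (by rw [← two_smul F, h2, zero_smul]) rfl).mem_tau
  rw [ht, AddSubgroup.mem_bot, ← two_mul, h2, zero_mul, zero_add] at this
  rwa [unit_Q]

theorem Sb_le_Bl (h2 : (2 : F) = 0) (hc : ∀ a, frobq hF a = -a → c.ψ a = 1) (hu : f.Q u = 0)
    (ht : tau f u ω = ⊥) : Sb f u ω ≤ Bl c f u ω := fun v hv => by
  simpa using smul_mem_Bl_of_bot hc hu ht hv (l := 1) (by rw [map_one]; linear_combination h2)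

theorem PInv.tau_bot {G : Subgroup f.Isom} [DecidablePred fun ω : X => tau f u ω = ⊥]
    (hu : f.Q u = 0) (h : PInv f G u Y) : PInv f G u (Y.filter fun ω => tau f u ω = ⊥) :=
  h.filter fun _ _ _ ha hk _ h => tau_conj_eq_bot hu h hk ha

theorem PInv.tau_ne_bot {G : Subgroup f.Isom} [DecidablePred fun ω : X => ¬ tau f u ω = ⊥]
    (hu : f.Q u = 0) (h : PInv f G u Y) : PInv f G u (Y.filter fun ω => ¬ tau f u ω = ⊥) :=
  h.filter_not fun _ _ _ ha hk _ h => tau_conj_eq_bot hu h hk ha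

theorem Sys.su4_sing (S : Sys f f.SIsom Y) (h4 : finrank F V = 4)
    (hB : Y.card < (q + 1) * (q ^ 3 + 1)) (hc : ∀ a, frobq hF a = -a → c.ψ a = 1) (hu : f.Q u = 0)
    (hu0 : u ≠ 0) (hω : ω ∈ Y) (ht : tau f u ω = ⊥) (hy : y ∈ Bl c f u ω) : f.Q y = 0 := by
  classical
  by_contra hy0
  have hw : wt f u ω = q := by rw [wt_of_bot ht, card_Lam_unit]
  obtain ⟨n1, n2⟩ := su4_counts S.nd h4 hu hu0
  rcases (two_le_q hF).eq_or_lt with rfl | hq
  · have h2 := two_eq_zero_of_q hF rfl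
    have hF4 : Nat.card F = 4 := by rw [card_F hF]; rfl
    have h3 : Sb f u ω < Bl c f u ω := lt_of_le_of_ne (Sb_le_Bl h2 hc hu ht)
      fun e => hy0 (Q_of_mem_Sb h2 hu ht (e ▸ hy))
    have h5 := card_Sb_mul_card_Bl (c := c) (u := u) (ω := ω) S.nd
    rw [Module.natCard_eq_pow_finrank (K := F) (V := V), hF4, h4] at h5
    have h6 : 4 * Nat.card (Sb f u ω) ≤ Nat.card (Bl c f u ω) := four_mul_le h5
      (Set.ncard_lt_ncard (s := (Sb f u ω : Set V)) (t := (Bl c f u ω : Set V)) h3)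
    have h7 := card_ge_orbit (c := c) S.nd hu hu0 (S.cl hu (S.pinv u)) hω
    rw [hw, hF4] at h7
    have h8 : Nat.card (Sb f u ω) = 8 ∧ Nat.card (Bl c f u ω) = 32 := by
      generalize Nat.card (Sb f u ω) = s at *
      generalize Nat.card (Bl c f u ω) = b at *
      have : s ≤ 13 := by omega
      interval_cases s <;> omega
    obtain ⟨v, hv, hv'⟩ : ∃ v ∈ Sb f u ω, v ∉ F ∙ u := by
      by_contra h; push Not at h
      have := Set.ncard_le_ncard (s := (Sb f u ω : Set V)) (t := (F ∙ u : Submodule F V)) h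
      rw [ncard_span hu0, hF4] at this
      exact absurd (h8.1 ▸ this : 8 ≤ 4) (by omega)
    have p1 := ((S.pinv u).card_Bl (c := c) (· = 32) hu)
    have h9 := dual_cover c S.nd hu hu0 (S.cl hu p1) (C := Cs f u) (fun _ h => h.2.2)
      (m := 8) (n := 4) (fun y' hy' => by
        obtain ⟨k, hk, a, ha, e1, e2⟩ := su_class_two h2 S.nd hu hu0
          ⟨orth_of_mem_Sb hu hv, Q_of_mem_Sb h2 hu ht hv, hv'⟩ hy'
        refine ⟨k • ω, p1 k hk a ha e1 ω (by simp [hω, h8.2]), ?_, ?_⟩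
        · have := map_mem_Sb k hv
          rw [e1, mem_Sb_smul hu ha, e2, smul_smul, Param.unit_σ, mul_comm, mul_frobq,
            show 2 + 1 = Fintype.card F - 1 by rw [hF]; rfl,
            FiniteField.pow_card_sub_one_eq_one a ha, one_smul] at this
          exact this
        · have := wt_pos (f := f) u (k • ω)
          rw [card_Bl_conj hu e1 ha, h8.2, hF4]; omega) fun ω' hω' => by
        have := card_Sb_mul_card_Bl (c := c) (u := u) (ω := ω') S.nd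
        rw [(mem_filter.1 hω').2, Module.natCard_eq_pow_finrank (K := F) (V := V), hF4, h4] at this
        omega
    have := card_filter_le Y fun ω' => Nat.card (Bl c f u ω') = 32
    omega
  · have h1 := class_le (c := c) (u := u) (Y := Y) (C := Cn f u) (m := q) fun y' hy' => by
      obtain ⟨k, hk, a, ha, e1, e2⟩ := su4_class_ns S.nd h4 hu hu0 ⟨orth_of_mem_Bl hy, hy0⟩ hy'
      exact (hw ▸ mu_ge_one S.nd hu hu0 (S.cl hu (S.pinv u)) hω hy).trans
        (mu_conj hu e1 ha e2 (S.inv k hk))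
    rw [card_F hF] at h1
    have h2 : (q : ℤ) * (Cn f u).ncard ≤ q ^ 2 * Y.card := by exact_mod_cast h1
    zify at hB hq
    rw [n2] at h2
    obtain ⟨r, hr⟩ : ∃ r : ℤ, q = r + 3 := ⟨q - 3, by ring⟩
    have h3 : 0 ≤ r := by omega
    have h5 : (q : ℤ) ^ 2 * (q - 1) * (q ^ 2 - 1) ≤ Y.card :=
      le_of_mul_le_mul_left (a := (q : ℤ) ^ 2) (by linarith) (by positivity)
    rw [hr] at h5 hB
    have : 0 ≤ (r + 3) ^ 2 * (r + 3 - 1) * ((r + 3) ^ 2 - 1) - (r + 3 + 1) * ((r + 3) ^ 3 + 1) := by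
      ring_nf; positivity
    linarith

omit [Finite V] in
theorem skew_of_sing {a b : V} (ha : f.Q a = 0) (hb : f.Q b = 0) (h : f.Q (a + b) = 0) :
    frobq hF (f.B a b) = -f.B a b := by
  rw [f.Q_add, ha, hb, Param.unit_τ] at h
  linear_combination h

theorem su4_card_le (hf : f.Nondeg) (h4 : finrank F V = 4) (hu : f.Q u = 0) (hu0 : u ≠ 0)
    {A : AddSubgroup V} (h1 : ∀ a ∈ A, f.B a u = 0) (h2 : ∀ a ∈ A, f.Q a = 0) :
    Nat.card A ≤ q ^ 4 ∧ ((∃ y, ∀ a ∈ A, ∃ s t : F, s • u + t • y = a) ∨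
      ∃ y ∈ A, ∃ y' ∈ A, f.B y y' ≠ 0) := by
  by_cases h : ∃ y, ∀ a ∈ A, ∃ s t : F, s • u + t • y = a
  · refine ⟨?_, Or.inl h⟩
    obtain ⟨y, h⟩ := h
    refine (Set.ncard_le_ncard (s := (A : Set V)) h).trans ((ncard_span_pair_le u y).trans ?_)
    rw [card_F hF]; exact le_of_eq (by ring)
  push Not at h
  obtain ⟨y, hy, h3⟩ := h 0
  have h5 : y ∈ Cs f u := ⟨h1 y hy, h2 y hy, fun e => by
    obtain ⟨s, e⟩ := Submodule.mem_span_singleton.1 e
    exact h3 s 0 (by simpa using e)⟩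
  obtain ⟨y', hy', h6⟩ := h y
  have h7 : f.B y' y ≠ 0 := fun e => by
    obtain ⟨s, t, e⟩ := su4_perp hf h4 hu hu0 h5 (h1 y' hy') e
    exact h6 s t e
  refine ⟨?_, Or.inr ⟨y', hy', y, hy, h7⟩⟩
  have key : ∀ b ∈ A, ∀ A' ≤ A, Nat.card A' ≤
      q * Nat.card (A' ⊓ (f.B.flip b).toAddMonoidHom.ker : AddSubgroup V) := fun b hb A' h' => by
    have := card_le_mul_of_add (f.B.flip b).toAddMonoidHom A' _ fun x hx => mem_Lam_unit.2
      (skew_of_sing (h2 x (h' hx)) (h2 b hb) (h2 _ (add_mem (h' hx) hb)))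
    rwa [card_Lam_unit] at this
  have e1 := key y hy A le_rfl
  have e2 := key y' hy' _ (inf_le_left (b := (f.B.flip y).toAddMonoidHom.ker))
  have e3 : Nat.card ((A ⊓ (f.B.flip y).toAddMonoidHom.ker) ⊓ (f.B.flip y').toAddMonoidHom.ker :
      AddSubgroup V) ≤ q ^ 2 := by
    rw [← card_F hF, ← ncard_span (F := F) hu0]
    refine Set.ncard_le_ncard (s := SetLike.coe (_ : AddSubgroup V)) fun a ha => ?_
    obtain ⟨s, t, rfl⟩ := su4_perp hf h4 hu hu0 h5 (h1 a ha.1.1) ha.1.2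
    have : f.B (s • u + t • y) y' = 0 := ha.2
    rw [B_add_left, B_smul_left, B_smul_left, f.B_eq_zero_symm (h1 y' hy'), mul_zero, zero_add,
      mul_eq_zero, or_iff_left (B_ne_symm h7)] at this
    simp [this, Submodule.mem_span_singleton_self, Submodule.smul_mem]
  calc _ ≤ q * (q * q ^ 2) := e1.trans (Nat.mul_le_mul_left _ (e2.trans (by gcongr)))
    _ = _ := by ring

theorem Sys.su4_types (S : Sys f f.SIsom Y) (h4 : finrank F V = 4)
    (hB : Y.card < (q + 1) * (q ^ 3 + 1)) (hc : ∀ a, frobq hF a = -a → c.ψ a = 1) (hu : f.Q u = 0)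
    (hu0 : u ≠ 0) (hω : ω ∈ Y) (ht : tau f u ω = ⊥) : Nat.card (Bl c f u ω) = q ^ 4 ∧
      (∀ v ∈ Sb f u ω, f.Q v = 0) ∧
      ((∃ y ∈ Cs f u, ∀ a, a ∈ Sb f u ω ↔ ∃ s t : F, s • u + t • y = a) ∨
      (2 : F) = 0 ∧ Sb f u ω = Bl c f u ω ∧ ∃ y ∈ Sb f u ω, ∃ y' ∈ Sb f u ω, f.B y y' ≠ 0) := by
  have h1 := (su4_card_le S.nd h4 hu hu0 (fun a => orth_of_mem_Bl)
    fun a => S.su4_sing h4 hB hc hu hu0 hω ht).1
  have h2 := card_Sb_le_of_bot hc hu ht
  have h3 := card_Sb_mul_card_Bl (c := c) (u := u) (ω := ω) S.nd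
  rw [Module.natCard_eq_pow_finrank (K := F) (V := V), card_F hF, h4] at h3
  have hq := two_le_q hF
  have h5 : Nat.card (Bl c f u ω) = q ^ 4 := le_antisymm h1 (by
    by_contra h
    have : Nat.card (Sb f u ω) * Nat.card (Bl c f u ω) < q ^ 4 * q ^ 4 :=
      Nat.mul_lt_mul'' (by omega) (by omega)
    rw [h3] at this
    exact absurd this (by ring_nf; omega))
  have h6 : Nat.card (Sb f u ω) = q ^ 4 := by
    rw [h5, show (q ^ 2) ^ 4 = q ^ 4 * q ^ 4 by ring] at h3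
    exact Nat.eq_of_mul_eq_mul_right (by positivity) h3
  obtain ⟨l, hl0, hl⟩ := exists_lam0 hF
  have h7 : ∀ v ∈ Sb f u ω, f.Q v = 0 := fun v hv => by
    have := S.su4_sing h4 hB hc hu hu0 hω ht (smul_mem_Bl_of_bot hc hu ht hv (lam0_unit'.1 hl))
    rw [f.Q_smul] at this
    simpa [hl0] using this
  refine ⟨h5, h7, ?_⟩
  rcases (su4_card_le S.nd h4 hu hu0 (fun a => orth_of_mem_Sb hu) h7).2 with ⟨y, h⟩ | h
  · have e : (Sb f u ω : Set V) = {a | ∃ s t : F, s • u + t • y = a} :=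
      Set.eq_of_subset_of_ncard_le h ((ncard_span_pair_le u y).trans (by
        rw [card_F hF]; exact le_of_eq (by rw [show q ^ 2 * q ^ 2 = q ^ 4 by ring, ← h6]; rfl)))
    have e1 : y ∈ Sb f u ω := e.ge ⟨0, 1, by simp⟩
    refine Or.inl ⟨y, ⟨orth_of_mem_Sb hu e1, h7 y e1, fun hy => ?_⟩, Set.ext_iff.1 e⟩
    have := Set.ncard_le_ncard (s := (Sb f u ω : Set V)) (t := (F ∙ u : Submodule F V)) fun a ha => by
      obtain ⟨s, t, rfl⟩ := h a ha
      exact add_mem (Submodule.smul_mem _ _ (Submodule.mem_span_singleton_self u))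
        (Submodule.smul_mem _ _ hy)
    rw [ncard_span hu0, card_F hF] at this
    have : q ^ 4 ≤ q ^ 2 := h6 ▸ this
    rw [Nat.pow_le_pow_iff_right (by omega)] at this
    omega
  · have e : (2 : F) = 0 := by
      obtain ⟨y, hy, y', hy', h⟩ := h
      have a1 := comm_mem_tau hu hy hy'
      have a2 := skew_of_sing (h7 y hy) (h7 y' hy') (h7 _ (add_mem hy hy'))
      rw [ht, AddSubgroup.mem_bot, uB_symm, a2] at a1
      exact (mul_eq_zero.1 (by linear_combination -a1)).resolve_right h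
    exact Or.inr ⟨e, AddSubgroup.eq_of_le_of_card_ge (Sb_le_Bl e hc hu ht) (by omega), h⟩

end Cfsg.Agent.MI
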