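import Cfsg.Agent.Lib.MI.V1

/-!
Transitive actions of the four-dimensional special unitary groups: no transvection has a fixed point.
-/

set_option autoImplicit false

namespace Cfsg.Agent.MI

open Module Cfsg.Agent.Forms Cfsg.Agent.Forms.Form Cfsg.Agent.Cls Cfsg.Agent.Deg Finset

variable {F : Type*} [Field F] {V : Type*} [AddCommGroup V] [Module F V]
  [Fintype F] {q : ℕ} {hF : Fintype.card F = q ^ 2} {f : Form (uP hF) V} [Finite V]
  {X : Type*} [MulAction f.Isom X] {c : Chr (uP hF)} {u y v : V} {ω : X} {Y Y' : Finset X}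

theorem Sys.su4_mu_mono (S : Sys f f.SIsom Y) (h4 : finrank F V = 4)
    (hB : Y.card < (q + 1) * (q ^ 3 + 1)) (hc : ∀ a, frobq hF a = -a → c.ψ a = 1) (hu : f.Q u = 0)
    (hu0 : u ≠ 0) (hY : PInv f f.SIsom u Y') (h : ∀ ω ∈ Y', ω ∈ Y ∧ tau f u ω = ⊥)
    (hy : y ∈ Cs f u) {y' : V} (hy' : y' ∈ Cs f u) : mu c f u Y' y ≤ mu c f u Y' y' := by
  by_cases h2 : (2 : F) = 0
  · obtain ⟨k, hk, a, ha, e1, e2⟩ := su_class_two h2 S.nd hu hu0 hy hy'
    exact mu_conj hu e1 ha e2 (hY k hk a ha e1)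
  obtain ⟨b, hb, h3⟩ := su_class_sing S.nd hu hu0 hy hu hu0 hy'
  obtain ⟨k, hk, e1, e2⟩ := h3 1 b (one_mul b)
  refine (mu_conj hu e1 one_ne_zero (y' := b • y') (by rw [e2, one_smul])
    (hY k hk 1 one_ne_zero e1)).trans (mu_le_of_imp fun ω hω h5 v hv => ?_)
  obtain ⟨z, -, h6⟩ := (S.su4_types h4 hB hc hu hu0 (h ω hω).1 (h ω hω).2).2.2.resolve_right
    fun h => h2 h.1
  obtain ⟨s, t, rfl⟩ := (h6 v).1 hv
  have := h5 _ ((h6 ((frobq hF b)⁻¹ • (s • u + t • z))).2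
    ⟨_, _, by rw [smul_add, smul_smul, smul_smul]⟩)
  rwa [B_smul_left, uB_smul, inv_mul_cancel_left₀ ((map_ne_zero _).2 hb)] at this

theorem Sys.su4_orbits (S : Sys f f.SIsom Y) (h4 : finrank F V = 4)
    (hB : Y.card < (q + 1) * (q ^ 3 + 1)) (hc : ∀ a, frobq hF a = -a → c.ψ a = 1) (hu : f.Q u = 0)
    (hu0 : u ≠ 0) [DecidablePred fun ω : X => tau f u ω = ⊥] :
    q ^ 3 * (q + 1) ≤ (Y.filter fun ω => tau f u ω = ⊥).card ∧
      ∀ y ∈ Cs f u, mu c f u (Y.filter fun ω => tau f u ω = ⊥) y < 2 * q := by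
  have p1 := (S.pinv u).tau_bot hu
  have p2 : ∀ ω ∈ Y.filter fun ω => tau f u ω = ⊥, ω ∈ Y ∧ tau f u ω = ⊥ := fun _ => mem_filter.1
  have p3 := card_filter_le Y fun ω => tau f u ω = ⊥
  obtain ⟨ω, hω, ht⟩ : ∃ ω ∈ Y, tau f u ω = ⊥ := by
    obtain ⟨ω, hω⟩ := S.ne
    obtain ⟨z, hz, hz0, ht⟩ := S.su_tau_bot h4.ge hω
    obtain ⟨k, a, ha, e, h⟩ := S.exists_conj hω hz hz0 hu hu0
    exact ⟨_, h, tau_conj_eq_bot hz ht e ha⟩
  have m1 : ω ∈ Y.filter fun ω => tau f u ω = ⊥ := mem_filter.2 ⟨hω, ht⟩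
  generalize (Y.filter fun ω => tau f u ω = ⊥) = Y₁ at *
  have hq := two_le_q hF
  have hq' : (2 : ℚ) ≤ q := by exact_mod_cast hq
  have key : ∀ y ∈ Cs f u, mu c f u Y₁ y * (q ^ 2 * (q + 1)) ≤ Y₁.card := fun y hy => by
    have h1 := class_small (c := c) hu hu0 (C := Cs f u) (fun _ h => h.2.2) (b := q ^ 2)
      (m := mu c f u Y₁ y) (fun ω hω => by
        rw [(S.su4_types h4 hB hc hu hu0 (p2 ω hω).1 (p2 ω hω).2).1, card_F hF]
        exact le_of_eq (by ring)) fun y' hy' => S.su4_mu_mono h4 hB hc hu hu0 p1 p2 hy hy'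
    have h2 : ((Cs f u).ncard : ℚ) = q ^ 2 * (q + 1) * (q ^ 2 - 1) := by
      exact_mod_cast (su4_counts S.nd h4 hu hu0).1
    rw [h2, card_F hF] at h1
    push_cast at h1
    exact le_of_mul_le_mul_left (a := (q : ℚ) ^ 2 * (q ^ 2 - 1)) (by linarith)
      (mul_pos (by positivity) (by nlinarith))
  refine ⟨?_, fun y hy => lt_of_mul_lt_mul_right (a := (q : ℚ) ^ 2 * (q + 1))
    ((key y hy).trans_lt ?_) (by positivity)⟩
  · obtain ⟨y, hy, hy'⟩ : ∃ y ∈ Bl c f u ω, y ∉ F ∙ u := by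
      by_contra h; push Not at h
      have := (full_of_Bl_le S.nd h4.ge hu hu0 h).tau_eq
      have e := card_Lam_unit (hF := hF)
      rw [← this, ht, AddSubgroup.card_bot] at e
      omega
    have h1 := mu_ge_one S.nd hu hu0 (S.cl hu p1) m1 hy
    rw [wt_of_bot ht, card_Lam_unit] at h1
    have := (mul_le_mul_of_nonneg_right h1 (by positivity)).trans
      (key y ⟨orth_of_mem_Bl hy, S.su4_sing h4 hB hc hu hu0 hω ht hy, hy'⟩)
    rw [show (q : ℚ) * (q ^ 2 * (q + 1)) = q ^ 3 * (q + 1) by ring] at this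
    exact_mod_cast this
  · have : Y₁.card < 2 * q * (q ^ 2 * (q + 1)) := by
      have : 1 ≤ q ^ 3 := Nat.one_le_pow _ _ (by omega)
      nlinarith
    exact_mod_cast this

theorem Sys.su4_full (S : Sys f f.SIsom Y) (h4 : finrank F V = 4) (hu : f.Q u = 0) (hu0 : u ≠ 0)
    (hY : PInv f f.SIsom u Y') (h : Y'.card ≤ q) (hω : ω ∈ Y') : Full f u ω := by
  obtain ⟨c, -⟩ := exists_chr_unit hF
  refine full_of_Bl_le (c := c) S.nd h4.ge hu hu0 fun y hy => by_contra fun hy' => ?_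
  have h1 := (one_le_wt u ω).trans (mu_ge_one S.nd hu hu0 (S.cl hu hY) hω hy)
  obtain ⟨n1, n2⟩ := su4_counts S.nd h4 hu hu0
  have hq : (2 : ℤ) ≤ q := by exact_mod_cast two_le_q hF
  have key : ∀ C : Set V, (∀ y ∈ C, 1 ≤ mu c f u Y' y) → (C.ncard : ℤ) ≤ q ^ 3 := fun C hC => by
    have := class_le hC
    rw [one_mul, card_F hF] at this
    have h2 : C.ncard ≤ q ^ 2 * Y'.card := by exact_mod_cast this
    exact_mod_cast h2.trans (by rw [pow_succ q 2]; gcongr)
  by_cases h0 : f.Q y = 0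
  · have h2 := key {y | 1 ≤ mu c f u Y' y} fun _ h => h
    choose! b hb h3 using fun y' hy'' =>
      su_class_sing S.nd hu hu0 ⟨orth_of_mem_Bl hy, h0, hy'⟩ hu hu0 (y' := y') hy''
    have h5 := Set.ncard_le_ncard_of_injOn (s := Cs f u) (t := {a : F | a ≠ 0} ×ˢ
      {y | 1 ≤ mu c f u Y' y}) (fun y' => (b y', b y' • y')) (fun y' hy' => ⟨hb y' hy', by
        obtain ⟨k, hk, e1, e2⟩ := h3 y' hy' 1 _ (one_mul _)
        exact h1.trans (mu_conj hu e1 one_ne_zero (by rw [e2, one_smul])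
          (hY k hk 1 one_ne_zero e1))⟩) fun y' hy' y'' _ e => by
        simp only [Prod.mk.injEq] at e
        exact smul_right_injective V (hb y' hy') (e.2.trans (by rw [e.1]))
    have h6 : {a : F | a ≠ 0}.ncard + 1 = q ^ 2 := by
      rw [← card_F hF, ← Set.ncard_univ, ← Set.ncard_insert_of_notMem (a := 0) (by simp)]
      congr 1; ext a; simp [em]
    rw [Set.ncard_prod] at h5
    zify at h5 h6
    rw [n1, eq_sub_of_add_eq h6] at h5
    have h7 : (0 : ℤ) < q ^ 2 - 1 := by nlinarith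
    have : (q : ℤ) ^ 2 * (q + 1) ≤ q ^ 3 := le_of_mul_le_mul_left (by nlinarith) h7
    nlinarith
  · have := key (Cn f u) fun y' hy' => by
      obtain ⟨k, hk, a, ha, e1, e2⟩ := su4_class_ns S.nd h4 hu hu0 ⟨orth_of_mem_Bl hy, h0⟩ hy'
      exact h1.trans (mu_conj hu e1 ha e2 (hY k hk a ha e1))
    rw [n2, mul_assoc] at this
    have h7 : (1 : ℤ) < (q - 1) * (q ^ 2 - 1) := by nlinarith
    have : (0 : ℤ) < q ^ 3 := by positivity
    nlinarith

theorem Sys.su4_bot (S : Sys f f.SIsom Y) (h4 : finrank F V = 4)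
    (hB : Y.card < (q + 1) * (q ^ 3 + 1)) (hu : f.Q u = 0) (hu0 : u ≠ 0) (hω : ω ∈ Y) :
    tau f u ω = ⊥ := by
  classical
  obtain ⟨c, hc⟩ := exists_chr_unit hF
  by_contra ht
  have h1 := (S.su4_orbits h4 hB hc hu hu0).1
  have h2 := card_filter_add_card_filter_not (s := Y) fun ω => tau f u ω = ⊥
  have h3 : (Y.filter fun ω => ¬ tau f u ω = ⊥).card ≤ q := by nlinarith
  have h5 := S.su4_full h4 hu hu0 ((S.pinv u).tau_ne_bot hu) h3 (mem_filter.2 ⟨hω, ht⟩)
  have hq := two_le_q hF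
  have h6 : (Y.filter (Full f u)).card ≤ q := (card_le_card fun ω hω => by
    rw [mem_filter] at hω ⊢
    refine ⟨hω.1, fun h => ?_⟩
    have e := card_Lam_unit (hF := hF)
    rw [← hω.2.tau_eq, h, AddSubgroup.card_bot] at e
    omega).trans h3
  have h7 := S.double_count (Full f) (fun g _ u ω h => h.map g) (fun a u ω ha _ h => h.smul ha)
    hu hu0 hω
  have h8 : 0 < (Y.filter (Full f u)).card := card_pos.2 ⟨ω, mem_filter.2 ⟨hω, h5⟩⟩
  have h9 := su_card_sing S.nd (k := 2) h4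
  have h10 : q ^ 3 * (q + 1) ≤ Y.card := by omega
  generalize (Y.filter (Full f u)).card = r at *
  have hq' : (2 : ℤ) ≤ q := by exact_mod_cast hq
  have hq3 : (q : ℤ) < q ^ 3 := by nlinarith
  zify at h7 h6 h8 h10 hB
  rw [h9] at h7
  by_cases h : ∀ w, f.Q w = 0 → Full f w ω → w ≠ 0 → w ∈ F ∙ u
  · have a1 := Set.ncard_le_ncard (s := insert 0 {w | (f.Q w = 0 ∧ w ≠ 0) ∧ Full f w ω})
      (t := (F ∙ u : Submodule F V)) (by
        rintro w (rfl | hw)
        · exact zero_mem _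
        · exact h w hw.1.1 hw.2 hw.1.2)
    rw [Set.ncard_insert_of_notMem (by simp), ncard_span hu0, card_F hF] at a1
    zify at a1
    have a2 : ((q : ℤ) ^ 2 - 1) * ((q ^ 2 + 1) * (q ^ 3 + 1) * r) ≤ (q ^ 2 - 1) * Y.card := by
      nlinarith
    have a3 := le_of_mul_le_mul_left a2 (by nlinarith)
    have a4 : ((q : ℤ) + 1) * (q ^ 3 + 1) * 1 ≤ (q ^ 2 + 1) * (q ^ 3 + 1) * r := by
      gcongr <;> nlinarith
    linarith
  · push Not at h
    obtain ⟨w, hw, h, -, hw'⟩ := h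
    have a1 := card_full_pair S.nd hu0 h5 h hw' (S.not_full_pair hω h h5 hw hu) hu hw
    rw [card_F hF] at a1
    zify at a1
    have a2 : ((q : ℤ) ^ 4 - 1) * Y.card ≤ (q ^ 4 - 1) * ((q ^ 3 + 1) * r) := by nlinarith
    have a3 := le_of_mul_le_mul_left a2 (by nlinarith)
    nlinarith

theorem Sys.su4_so (S : Sys f f.SIsom Y) (h4 : finrank F V = 4)
    (hB : Y.card < (q + 1) * (q ^ 3 + 1)) (hu : f.Q u = 0) (hu0 : u ≠ 0) (hω : ω ∈ Y)
    (hy : y ∈ Sb f u ω) (hy' : y ∈ Cs f u) {k : f.Isom} (hk : k ∈ f.SIsom) (h1 : k.1 u = u)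
    (h2 : k.1 y = y) : SO f u ω (k • ω) := by
  classical
  obtain ⟨c, hc⟩ := exists_chr_unit hF
  obtain ⟨l, hl0, hl⟩ := exists_lam0 hF
  have ht := S.su4_bot h4 hB hu hu0 hω
  have := (S.su4_orbits h4 hB hc hu hu0).2 (l • y) ⟨by rw [B_smul_left, hy'.1, mul_zero],
    by rw [f.Q_smul, hy'.2.1, mul_zero], by rw [Submodule.smul_mem_iff _ hl0]; exact hy'.2.2⟩
  rw [filter_true_of_mem fun ω hω => S.su4_bot h4 hB hu hu0 hω] at this
  exact S.so_of_mu_lt hu hu0 (S.pinv u) hω (smul_mem_Bl_of_bot hc hu ht hy (lam0_unit'.1 hl))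
    (by rwa [wt_of_bot ht, card_Lam_unit]) hk one_ne_zero (by rw [h1, one_smul])
    (by rw [map_smul, h2, one_smul])

theorem gauss_false (hF : Fintype.card F = q ^ 2) {l φ : F → F} (h1 : ∀ a b, l (a + b) = l a + l b)
    (h2 : ∀ a, l a ∈ Lam (uP hF)) (h3 : ∀ s ∈ Lam (uP hF), φ s ∈ Lam (uP hF)) (h0 : φ 0 = 0)
    (h : ∀ t, Set.InjOn (fun s => φ s + (s * (t * frobq hF t) - l (-(s * frobq hF t))))
      (Lam (uP hF))) : False := by
  classical
  obtain ⟨l₀, hl0, hl⟩ := exists_lam0 hF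
  obtain ⟨ψ, hψ⟩ := exists_addChar_ne hl0
  let L := univ.filter (· ∈ Lam (uP hF))
  have hL : L.card = q := by
    rw [← card_Lam_unit (hF := hF), Nat.card_eq_fintype_card, Fintype.card_subtype]
  have e0 : l 0 = 0 := by simpa using h1 0 0
  have e1 : ∑ s ∈ L, ψ s = 0 := by
    have := AddChar.sum_eq_zero_iff_ne_zero (ψ := ψ.compAddMonoidHom (Lam (uP hF)).subtype) |>.2
      fun e => hψ (DFunLike.congr_fun e ⟨l₀, mem_Lam.2 hl⟩)
    rwa [← sum_subtype_eq_sum_filter, subtype_univ]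
  have e2 : ∀ t, ∑ s ∈ L, ψ (φ s + (s * (t * frobq hF t) - l (-(s * frobq hF t)))) = 0 := fun t => by
    have m : ∀ s ∈ L, φ s + (s * (t * frobq hF t) - l (-(s * frobq hF t))) ∈ L := fun s hs => by
      simp only [L, mem_filter, mem_univ, true_and] at hs ⊢
      exact add_mem (h3 s hs) (sub_mem (mul_comm s _ ▸ norm_mul_mem_Lam t hs) (h2 _))
    have i := (h t).mono (s₁ := (L : Set F)) fun s hs => by simpa [L] using hs
    rw [← e1]
    exact sum_nbij _ m i (surjOn_of_injOn_of_card_le _ m i le_rfl) fun _ _ => rfl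
  let G : F → ℂ := fun s => ∑ t, ψ (s * (t * frobq hF t) - l (-(s * frobq hF t)))
  have e3 : ∀ s ∈ L.erase 0, ‖ψ (φ s) * G s‖ = q := fun s hs => by
    have hs0 := (mem_erase.1 hs).1
    have hs1 : frobq hF s = -s := mem_Lam_unit.1 (by simpa [L] using (mem_erase.1 hs).2)
    have a1 : G s * (starRingEnd ℂ) (G s) = ∑ d, ψ (s * (d * frobq hF d) - l (-(s * frobq hF d))) *
        ∑ t, ψ (s * (t * frobq hF d + d * frobq hF t)) := by
      simp only [G, map_sum, ← AddChar.map_neg_eq_conj, mul_sum, ← AddChar.map_add_eq_mul]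
      rw [sum_comm (f := fun d t => ψ (_ + s * (t * frobq hF d + d * frobq hF t)))]
      refine sum_congr rfl fun t _ => ?_
      rw [sum_mul, ← Equiv.sum_comp (Equiv.addRight t)]
      refine sum_congr rfl fun d _ => ?_
      simp only [← AddChar.map_add_eq_mul, Equiv.coe_addRight]
      rw [map_add (frobq hF), mul_add s (frobq hF d), neg_add, h1]
      congr 1; ring
    rw [sum_eq_single 0 (fun d _ hd => ?_) (by simp)] at a1
    · simp only [map_zero, mul_zero, zero_mul, neg_zero, e0, sub_zero, add_zero,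
        AddChar.map_zero_eq_one, sum_const, card_univ, hF, one_mul, nsmul_eq_mul, mul_one,
        Complex.mul_conj, Complex.normSq_eq_norm_sq] at a1
      rw [norm_mul, AddChar.norm_apply, one_mul]
      exact (pow_left_inj₀ (norm_nonneg _) (by positivity) two_ne_zero).1 (by exact_mod_cast a1)
    · let θ : F →+ F :=
        { toFun := fun t => s * (t * frobq hF d + d * frobq hF t)
          map_zero' := by simp
          map_add' := fun a b => by rw [map_add]; ring }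
      obtain ⟨a, ha⟩ := exists_trace (hF := hF) (t := l₀ / s)
        (by rw [map_div₀, hs1, lam0_unit'.1 hl, neg_div_neg_eq])
      have hd' : frobq hF d ≠ 0 := (map_ne_zero _).2 hd
      refine mul_eq_zero_of_right _ (AddChar.sum_eq_zero_iff_ne_zero
        (ψ := ψ.compAddMonoidHom θ) |>.2 fun e => hψ ?_)
      have := DFunLike.congr_fun e (a / frobq hF d)
      rw [← show θ (a / frobq hF d) = l₀ by
        change s * _ = _
        rw [map_div₀, frobq_frobq, div_mul_cancel₀ _ hd', mul_div_cancel₀ _ hd, ha,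
          mul_div_cancel₀ _ hs0]]
      exact this
  have m0 : (0 : F) ∈ L := by simp [L]
  have e4 : ∑ s ∈ L, ψ (φ s) * G s = 0 := by
    simp only [G, mul_sum, ← AddChar.map_add_eq_mul]
    rw [sum_comm]
    exact sum_eq_zero fun t _ => e2 t
  rw [← add_sum_erase _ _ m0, add_eq_zero_iff_eq_neg] at e4
  have e5 := norm_sum_le (L.erase 0) fun s => ψ (φ s) * G s
  rw [sum_congr rfl e3, ← norm_neg, ← e4, sum_const, card_erase_of_mem m0, hL] at e5
  have hq := two_le_q hF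
  obtain ⟨r, rfl⟩ : ∃ r, q = r + 1 := ⟨q - 1, by omega⟩
  simp [G, h0, e0, hF] at e5
  norm_cast at e5
  nlinarith

end Cfsg.Agent.MI
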