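import Cfsg.Agent.Lib.MI.V2

/-!
Minimal degree of a transitive action of a four-dimensional special unitary group.
-/

set_option autoImplicit false

namespace Cfsg.Agent.MI

open Module Cfsg.Agent.Forms Cfsg.Agent.Forms.Form Cfsg.Agent.Cls Cfsg.Agent.Deg Finset

variable {F : Type*} [Field F] {V : Type*} [AddCommGroup V] [Module F V]

section general
variable {P : Param F} {f : Form P V} {X : Type*} [MulAction f.Isom X] {u v w : V} {l l' m : F}
  {ω : X} {g : f.Isom}

theorem Fx.lam_eq (hu : f.Q u = 0) (ht : tau f u ω = ⊥) (h : Fx f u v l ω) (h' : Fx f u v l' ω) :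
    l = l' := by
  have := (h.sub hu h').mem_tau
  rwa [ht, AddSubgroup.mem_bot, sub_eq_zero] at this

theorem Fx.conj_isE (hu : f.Q u = 0) (h : Fx f u v l ω) (hg : IsE g u w m) :
    Fx f u v (l + P.ε * (P.ε * f.B v w - P.σ (f.B v w))) (g • ω) := by
  have := h.map g
  rw [hg.apply_self hu, IsE_apply_orth hg h.orth] at this
  exact (this.of_add_self hu _).congr rfl (by rw [map_neg, map_mul, P.σε]; ring)

theorem Fx.smul_eq_smul (hu : f.Q u = 0) (h : Fx f u v l ω) (hg : IsE g u v m) {z : f.Isom}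
    (hz : IsE z u 0 (m - l)) : g • ω = z • ω := by
  obtain ⟨k, h1, h2⟩ := h
  rw [hg.eq ((hz.mul hu h1).congr (zero_add _) (by simp)), mul_smul, h2]

theorem isE_zero_inj (hu : f.Q u = 0) (ht : tau f u ω = ⊥) {g' : f.Isom} (h : IsE g u 0 l)
    (h' : IsE g' u 0 l') (e : g • ω = g' • ω) : l = l' := by
  have : Fx f u 0 (l - l') ω := ⟨_, ((h'.inv hu).mul hu h).congr (by simp) (by
    have := (IsE_lam0 h').2
    rw [B_zero_left]; linear_combination this), by rw [mul_smul, e, inv_smul_smul]⟩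
  have := this.mem_tau
  rwa [ht, AddSubgroup.mem_bot, sub_eq_zero] at this

end general

variable [Fintype F] {q : ℕ} {hF : Fintype.card F = q ^ 2} {f : Form (uP hF) V} [Finite V]
  {X : Type*} [MulAction f.Isom X] {c : Chr (uP hF)} {u y v : V} {ω : X} {Y Y' : Finset X}

theorem Sys.su4_line (S : Sys f f.SIsom Y) (h4 : finrank F V = 4)
    (hB : Y.card < (q + 1) * (q ^ 3 + 1)) (hu : f.Q u = 0) (hu0 : u ≠ 0) (hω : ω ∈ Y)
    (hy : y ∈ Cs f u) (h : ∀ t : F, t • y ∈ Sb f u ω) : False := by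
  have ht := S.su4_bot h4 hB hu hu0 hω
  choose l hl using fun t => h t hu
  have l1 : ∀ t, l t ∈ Lam (uP hF) := fun t =>
    mem_Lam.2 (lam0_of_isLam (hl t).lam (by rw [f.Q_smul, hy.2.1, mul_zero]))
  have hyy := f.B_self_of_Q hy.2.1
  have hyu := hy.1
  have huy := f.B_eq_zero_symm hy.1
  have key : ∀ s ∈ Lam (uP hF), ∃ φ ∈ Lam (uP hF), ∀ x z : f.Isom, IsE x y 0 s → IsE z u 0 φ →
      x • ω = z • ω := fun s hs => by
    have hx := isE_tr hy.2.1 (mem_Lam.1 hs)
    generalize tr f y s hy.2.1 (mem_Lam.1 hs) = x at hx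
    have x1 : x.1 u = u := hx.apply_of_orth huy (f.B_zero_right _)
    obtain ⟨g, w, m, hg, e⟩ := S.su4_so h4 hB hu hu0 hω (by simpa using h 1) hy
      (isE_mem_SIsom hy.2.1 hx) x1 (hx.apply_self hy.2.1)
    have a1 : ∀ t : F, frobq hF (t * f.B y w) = t * f.B y w := fun t => by
      have a1 := (hl t).map x
      rw [x1, map_smul, hx.apply_self hy.2.1, ← e] at a1
      have := a1.lam_eq hu (S.su4_bot h4 hB hu hu0 (S.inv _ (S.ein hu hg) _ hω))
        ((hl t).conj_isE hu hg)
      simp only [Param.unit_ε, Param.unit_σ, one_mul, B_smul_left] at this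
      linear_combination this
    have a2 : f.B y w = 0 := by
      by_contra h0
      obtain ⟨a, ha⟩ := frobq_ne hF
      exact ha (by simpa [h0] using a1 (a / f.B y w))
    obtain ⟨r, t, rfl⟩ := su4_perp S.nd h4 hu hu0 hy hg.orth (f.B_eq_zero_symm a2)
    have a3 := IsE.add_self hu r (hg.congr (add_comm _ _) rfl)
    exact ⟨_, mem_Lam.2 (lam0_sub a3.lam (hl t).lam), fun x' z h1 h2 => by
      rw [h1.eq hx, ← e, (hl t).smul_eq_smul hu a3 h2]⟩
  choose! φ φ1 φ2 using key
  have l2 : ∀ a b, l (a + b) = l a + l b := fun a b => (hl _).lam_eq hu ht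
    (((hl a).mul hu (hl b)).congr (add_smul _ _ _).symm (by simp [uB_smul, hyy]))
  refine gauss_false hF (l := l) (φ := φ) l2 l1 φ1 ?_ fun t => ?_
  · obtain ⟨z, hz⟩ := exists_isE hu (f.B_zero_left u) ((mem_Lam.1 (φ1 0 (zero_mem _))).isLam f)
    exact isE_zero_inj hu ht hz (isE_one u) (φ2 0 (zero_mem _) 1 z (isE_one y) hz).symm
  have hz : f.Q (y + t • u) = 0 := by rw [Q_add_smul hu hy.1, hy.2.1]
  have key : ∀ s ∈ Lam (uP hF), ∀ x z : f.Isom, IsE x (y + t • u) 0 s →
      IsE z u 0 (φ s + (s * (t * frobq hF t) - l (-(s * frobq hF t)))) → x • ω = z • ω := by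
    intro s hs x z hx hz'
    have hs' := mem_Lam_unit.1 hs
    have m1 : s * (t * frobq hF t) ∈ Lam (uP hF) := mul_comm s _ ▸ norm_mul_mem_Lam t hs
    have h1 := isE_tr hy.2.1 (mem_Lam.1 hs)
    have h2 := isE_tr hu (mem_Lam.1 (sub_mem m1 (l1 (-(s * frobq hF t)))))
    have h3 := isE_tr hu (mem_Lam.1 (φ1 s hs))
    obtain ⟨g, hg⟩ := exists_isE (v := -(s * frobq hF t) • y) hu (by simp [hyu])
      (isLam_of_lam0 (by rw [f.Q_smul, hy.2.1, mul_zero]) (mem_Lam.1 m1))
    have e : x = tr f y s hy.2.1 (mem_Lam.1 hs) * g := Isom.ext fun w => by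
      rw [Isom.mul_apply, h1.app, hg.app, hx.app]
      simp only [B_add_left, B_sub_left, B_smul_left, B_add_right, uB_smul, hyy, huy, hyu,
        Param.unit_ε, map_neg, map_mul, hs', frobq_frobq, B_zero_right]
      module
    rw [e, mul_smul, (hl _).smul_eq_smul hu hg h2, ← mul_smul,
      isE_zero_comm h2 (h1.apply_of_orth huy (f.B_zero_right _)), mul_smul, φ2 s hs _ _ h1 h3,
      ← mul_smul, hz'.eq ((h2.mul hu h3).congr (add_zero _) (by simp [add_comm]))]
  intro s hs s' hs' e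
  obtain ⟨z, hz'⟩ := exists_isE hu (f.B_zero_left u) ((mem_Lam.1 (add_mem (φ1 s hs) (sub_mem
    (mul_comm s _ ▸ norm_mul_mem_Lam t hs) (l1 (-(s * frobq hF t)))))).isLam f)
  exact isE_zero_inj hz (S.su4_bot h4 hB hz (fun e => hy.2.2 (Submodule.mem_span_singleton.2
    ⟨-t, by rw [neg_smul, neg_eq_iff_add_eq_zero, add_comm, e]⟩)) hω)
    (isE_tr hz (mem_Lam.1 hs)) (isE_tr hz (mem_Lam.1 hs'))
    ((key s hs _ z (isE_tr _ _) hz').trans (key s' hs' _ z (isE_tr _ _) (hz'.congr rfl e)).symm)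

theorem exists_fixed_ne (hF : Fintype.card F = q ^ 2) (hq : 3 ≤ q) :
    ∃ s : F, frobq hF s = s ∧ s ≠ 0 ∧ s ≠ 1 := by
  by_contra h
  push Not at h
  have := Set.ncard_le_ncard (s := {t : F | frobq hF t = t}) (t := {0, 1}) fun t ht => by
    by_cases h0 : t = 0
    · exact Or.inl h0
    · exact Or.inr (h t ht h0)
  have h1 : q ≤ {t : F | frobq hF t = t}.ncard := card_fixed_ge hF
  rw [Set.ncard_pair zero_ne_one] at this
  omega

theorem Sys.su4_baer (S : Sys f f.SIsom Y) (h4 : finrank F V = 4)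
    (hB : Y.card < (q + 1) * (q ^ 3 + 1)) (hc : ∀ a, frobq hF a = -a → c.ψ a = 1) (hu : f.Q u = 0)
    (hu0 : u ≠ 0) (hω : ω ∈ Y) (h2 : (2 : F) = 0) (he : Sb f u ω = Bl c f u ω)
    (hy : y ∈ Sb f u ω) (hv : v ∈ Sb f u ω) (h : f.B v y ≠ 0) : False := by
  have hb := fun {ω} => S.su4_bot h4 hB hu hu0 (ω := ω)
  have ht := hb hω
  have cl : ∀ t, frobq hF t = t → ∀ v ∈ Sb f u ω, t • v ∈ Sb f u ω := fun t h v hv =>
    he ▸ smul_mem_Bl_of_bot hc hu ht hv (by linear_combination h + t * h2)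
  obtain ⟨y', hy', e1⟩ : ∃ y' ∈ Sb f u ω, f.B y' y = 1 := by
    have := comm_mem_tau hu hv hy
    rw [ht, AddSubgroup.mem_bot, uB_symm, sub_eq_zero] at this
    exact ⟨_, cl (f.B v y)⁻¹ (by rw [map_inv₀, this]) v hv, by rw [B_smul_left, inv_mul_cancel₀ h]⟩
  have e2 : f.B y y' = 1 := by rw [uB_symm, e1, map_one]
  have q1 := Q_of_mem_Sb h2 hu ht hy
  have hyy := f.B_self_of_Q q1
  have hyy' := f.B_self_of_Q (Q_of_mem_Sb h2 hu ht hy')
  have hyu := orth_of_mem_Sb hu hy
  have huy := f.B_eq_zero_symm hyu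
  have huu := f.B_self_of_Q hu
  have c1 : y ∈ Cs f u := ⟨hyu, q1, not_mem_span_of_B (f.B_eq_zero_symm (orth_of_mem_Sb hu hy'))
    (by rw [e2]; exact one_ne_zero)⟩
  choose! l hl using fun t h => cl t h y hy hu
  have key : ∀ s, frobq hF s = s → ∀ x, IsE x y 0 s → ∃ g w m, IsE g u w m ∧ g • ω = x • ω ∧
      frobq hF (f.B y w) = f.B y w ∧ ∀ t, frobq hF t = t →
        l (s * t) = s * t * t + t * (f.B y' w + frobq hF (f.B y' w)) := fun s hs x hx => by
    have x1 : x.1 u = u := hx.apply_of_orth huy (f.B_zero_right _)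
    obtain ⟨g, w, m, hg, e⟩ := S.su4_so h4 hB hu hu0 hω hy c1 (isE_mem_SIsom q1 hx) x1
      (hx.apply_self q1)
    have hb' := hb (S.inv _ (S.ein hu hg) _ hω)
    have a1 : ∀ t, frobq hF t = t → Fx f u (t • y) (l t) (g • ω) := fun t h => by
      have a1 := (hl t h).map x
      rwa [x1, map_smul, hx.apply_self q1, ← e] at a1
    refine ⟨g, w, m, hg, e, ?_, fun t h => ?_⟩
    · have := (a1 1 (map_one _)).lam_eq hu hb' ((hl 1 (map_one _)).conj_isE hu hg)
      simp only [Param.unit_ε, Param.unit_σ, one_mul, one_smul] at this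
      linear_combination this
    · obtain ⟨l', h1⟩ := cl t h y' hy' hu
      have a2 := h1.map x
      rw [x1, ← e] at a2
      have := a2.lam_eq hu hb' (((h1.conj_isE hu hg).mul hu
        (a1 (s * t) (by rw [map_mul, h, hs]))).congr (by
          rw [hx.app]
          simp only [B_smul_left, e1, B_zero_right, Param.unit_ε]
          match_scalars <;> grind) rfl)
      simp only [Param.unit_ε, Param.unit_σ, one_mul, B_smul_left, uB_smul, map_mul, h, e2] at this
      grind
  have lam : ∀ s, frobq hF s = s → Lam0 (uP hF) s := fun s h =>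
    lam0_unit'.2 (by linear_combination h + s * h2)
  obtain ⟨g, w, m, hg, e, a1, a2⟩ := key 1 (map_one _) _ (isE_tr q1 (lam 1 (map_one _)))
  rcases (two_le_q hF).eq_or_lt with hq | hq
  · have fx : ∀ a, frobq hF a = a → a = 0 ∨ a = 1 := fun a h => by
      rw [frobq_apply, ← hq] at h
      grind
    obtain ⟨g, w, m, hg, e, a1, a2⟩ : ∃ g w m, IsE g u w m ∧ g • ω = tr f y 1 q1 (lam 1 (map_one _))
        • ω ∧ f.B y w = 0 ∧ l 1 = 1 + (f.B y' w + frobq hF (f.B y' w)) := by
      have a2 := a2 1 (map_one _)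
      simp only [one_mul] at a2
      rcases fx _ a1 with a1 | a1
      · exact ⟨g, w, m, hg, e, a1, a2⟩
      · obtain ⟨_, k, h1, h3⟩ := hy' hu
        exact ⟨_, _, _, hg.mul hu h1, by rw [mul_smul, h3, e], by
          rw [B_add_right, a1, e2]; linear_combination h2, by rw [B_add_right, hyy', add_zero, a2]⟩
    obtain ⟨r, b, rfl⟩ := su4_perp S.nd h4 hu hu0 c1 hg.orth (f.B_eq_zero_symm a1)
    obtain ⟨m, hg⟩ : ∃ m, IsE g u (b • y) m := ⟨_, IsE.add_self hu r (hg.congr (add_comm _ _) rfl)⟩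
    simp only [B_add_right, uB_smul, e1, orth_of_mem_Sb hu hy', mul_zero, mul_one, zero_add,
      frobq_frobq] at a2
    have m1 : frobq hF m = m := by
      have := lam0_unit'.1 (lam0_of_isLam hg.lam (by rw [f.Q_smul, q1, mul_zero]))
      linear_combination this - m * h2
    have key : ∀ a : F, m + b * frobq hF b = a * frobq hF a →
        Fx f (y + (frobq hF b + a) • u) (a • u) 1 ω := fun a ha => by
      obtain ⟨k, hk⟩ := exists_isE (u := y + (frobq hF b + a) • u) (v := a • u) (l := 1)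
        (by rw [Q_add_smul hu hyu, q1]) (by simp [uB_smul, huy, huu])
        (isLam_of_lam0 (by rw [f.Q_smul, hu, mul_zero]) (lam 1 (map_one _)))
      refine ⟨k, hk, smul_left_cancel g ?_⟩
      rw [e, ← mul_smul]
      congr 1
      refine Isom.ext fun w => ?_
      rw [Isom.mul_apply, hg.app, hk.app, utr_apply]
      simp only [B_add_left, B_sub_left, B_smul_left, B_add_right, uB_smul, hyy, huy, hyu, huu,
        Param.unit_ε, map_add (frobq hF), frobq_frobq]
      match_scalars <;> grind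
    have c2 : ∀ t : F, f.Q (y + t • u) = 0 ∧ y + t • u ≠ 0 ∧ u ∈ Cs f (y + t • u) := fun t => by
      have : y + t • u ∉ F ∙ u := fun h => c1.2.2 (by
        simpa using sub_mem h (Submodule.smul_mem _ t (Submodule.mem_span_singleton_self u)))
      exact ⟨by rw [Q_add_smul hu hyu, q1], by rintro h; simp [h] at this,
        by simp [uB_smul, huy, huu], hu, not_mem_span_symm hu0 this⟩
    rcases fx (m + b * frobq hF b) (by rw [map_add, map_mul, m1, frobq_frobq, mul_comm]) with h | h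
    · have := (key 0 (by simpa using h)).congr (zero_smul _ _) rfl |>.mem_tau
      rw [S.su4_bot h4 hB (c2 _).1 (c2 _).2.1 hω, AddSubgroup.mem_bot] at this
      exact one_ne_zero this
    obtain ⟨a, ha⟩ := frobq_ne hF
    have n1 : ∀ t : F, t ≠ 0 → t * frobq hF t = 1 := fun t h =>
      (fx _ (by rw [map_mul, frobq_frobq, mul_comm])).resolve_left (by simp [h])
    have n2 : ∀ t : F, frobq hF t ≠ t → t + frobq hF t = 1 := fun t h =>
      (fx _ (by rw [map_add, frobq_frobq, add_comm])).resolve_left (by grind)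
    have a0 : a ≠ 0 := by rintro rfl; simp at ha
    have b1 := (key a (by rw [h, n1 a a0])).mem_Sb
    have b2 : u ∈ Sb f (y + (frobq hF b + a) • u) ω := by
      have := (((hl 1 (map_one _)).add_self hu (frobq hF b + a)).congr (v' := (1 : F) • (y +
        (frobq hF b + a) • u)) (l' := 0) (by simp) (by
          simp only [Param.unit_ε, Param.unit_σ, map_add, frobq_frobq, a2]
          have := n2 a ha
          grind)).swap hu (by simp [uB_smul, huy, huu])
      simpa using this.mem_Sb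
    refine S.su4_line h4 hB (c2 (frobq hF b + a)).1 (c2 _).2.1 hω (c2 _).2.2 fun t => ?_
    by_cases h : frobq hF t = t
    · rcases fx t h with rfl | rfl
      · simp
      · simpa using b2
    · have : t = a ∨ t = a + 1 := by
        have := n1 a a0
        have := n2 a ha
        have := n2 t h
        have := n1 t (by rintro rfl; simp at h)
        grind
      rcases this with rfl | rfl
      · exact b1
      · simpa only [add_smul, one_smul] using add_mem b1 b2
  · obtain ⟨s, s1, s2, s3⟩ := exists_fixed_ne hF hq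
    obtain ⟨-, w', -, -, -, -, a3⟩ := key s s1 _ (isE_tr q1 (lam s s1))
    have b1 := a3 1 (map_one _)
    have b2 := a3 s s1
    have b3 := a2 s s1
    have b4 := a2 (s * s) (by rw [map_mul, s1])
    simp only [one_mul, mul_one] at b1 b2 b3 b4
    grind

theorem su4_index_ge (hf : f.Nondeg) (h4 : finrank F V = 4) (H : Subgroup f.SIsom) (hH : H ≠ ⊤) :
    (q + 1) * (q ^ 3 + 1) ≤ H.index := by
  obtain ⟨Y, S, e⟩ := exists_sys hf (big_of_lam0 (exists_lam0 hF)) isE_mem_SIsom
    (su_gen hf (by omega)) H hH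
  by_contra hB
  rw [← e, not_le] at hB
  obtain ⟨c, hc⟩ := exists_chr_unit hF
  obtain ⟨u, hu0, hu⟩ := hf.unit_exists_singular (by omega)
  obtain ⟨ω, hω⟩ := S.ne
  rcases (S.su4_types h4 hB hc hu hu0 hω (S.su4_bot h4 hB hu hu0 hω)).2.2 with ⟨y, hy, h⟩ |
    ⟨h2, h, y, hy, y', hy', h'⟩
  · exact S.su4_line h4 hB hu hu0 hω hy fun t => (h _).2 ⟨0, t, by simp⟩
  · exact S.su4_baer h4 hB hc hu hu0 hω h2 h hy' hy h'

theorem su4_index_line (hf : f.Nondeg) (h4 : finrank F V = 4) :
    ∃ H : Subgroup f.SIsom, Subgroup.center _ ≤ H ∧ H.index = (q + 1) * (q ^ 3 + 1) := by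
  classical
  have := Fintype.ofFinite V
  let _ : MulAction f.SIsom (Submodule F V) :=
    { smul := fun g M => M.map (g.1.1 : V →ₗ[F] V)
      one_smul := fun M => Submodule.map_id M
      mul_smul := fun g k M => Submodule.map_comp _ _ M }
  have sm : ∀ (g : f.SIsom) (x y : V), g • Submodule.span F {x, y} =
      Submodule.span F {g.1.1 x, g.1.1 y} := fun g x y => by
    change Submodule.map _ _ = _
    rw [Submodule.map_span, Set.image_pair]; rfl
  obtain ⟨u, hu0, hu⟩ := hf.unit_exists_singular (by omega)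
  obtain ⟨y, hy⟩ := exists_mem_Cs hf h4.ge hu hu0
  refine ⟨MulAction.stabilizer _ (Submodule.span F {u, y}), fun z hz => ?_, ?_⟩
  · obtain ⟨a, h1⟩ := Submodule.mem_span_singleton.1
      (center_fix_sing hf (by omega) isE_mem_SIsom hz hu)
    obtain ⟨b, h2⟩ := Submodule.mem_span_singleton.1
      (center_fix_sing hf (by omega) isE_mem_SIsom hz hy.2.1)
    refine Submodule.eq_of_le_of_finrank_eq ?_ (LinearEquiv.finrank_map_eq _ _)
    rw [sm, ← h1, ← h2, Submodule.span_le]
    rintro _ (rfl | rfl) <;> exact Submodule.smul_mem _ _ (Submodule.subset_span (by simp))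
  rw [MulAction.index_stabilizer, Set.ncard_eq_toFinset_card']
  have hq := two_le_q hF
  have o1 : ∀ x, f.Q x = 0 → x ≠ 0 → ∀ z ∈ Cs f x, Submodule.span F {x, z} ∈
      MulAction.orbit f.SIsom (Submodule.span F {u, y}) := fun x hx hx0 z hz => by
    obtain ⟨b, hb, h⟩ := su_class_sing hf hu hu0 hy hx hx0 hz
    obtain ⟨k, hk, e1, e2⟩ := h 1 b (one_mul _)
    refine ⟨⟨k, hk⟩, (sm _ _ _).trans ?_⟩
    rw [e1, e2, one_smul, Submodule.span_insert, Submodule.span_insert,
      Submodule.span_singleton_smul_eq hb.isUnit]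
  have o2 : ∀ M ∈ MulAction.orbit f.SIsom (Submodule.span F {u, y}), finrank F M = 2 ∧
      ∀ a ∈ M, f.Q a = 0 ∧ ∀ b ∈ M, f.B a b = 0 := by
    rintro _ ⟨g, rfl⟩
    refine ⟨(LinearEquiv.finrank_map_eq _ _).trans ?_, ?_⟩
    · have := finrank_span_eq_card (LinearIndependent.pair_iff' hu0 |>.2 fun a e =>
        hy.2.2 (Submodule.mem_span_singleton.2 ⟨a, e⟩))
      rwa [Matrix.range_cons_cons_empty] at this
    rintro _ ⟨a, ha, rfl⟩
    obtain ⟨s, t, rfl⟩ := Submodule.mem_span_pair.1 ha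
    refine ⟨(Isom.map_Q _ _).trans (by
      rw [add_comm, Q_add_smul hu (by simp [hy.1]), f.Q_smul, hy.2.1, mul_zero]), ?_⟩
    rintro _ ⟨b, hb, rfl⟩
    obtain ⟨s', t', rfl⟩ := Submodule.mem_span_pair.1 hb
    exact (Isom.map_B _ _ _).trans (by simp [uB_smul, hy.1, f.B_eq_zero_symm hy.1,
      f.B_self_of_Q hu, f.B_self_of_Q hy.2.1])
  have o3 : ∀ M ∈ MulAction.orbit f.SIsom (Submodule.span F {u, y}),
      (univ.filter (· ∈ M)).card = q ^ 4 := fun M hM => by
    rw [← Fintype.card_subtype, ← Nat.card_eq_fintype_card,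
      Module.natCard_eq_pow_finrank (K := F), (o2 M hM).1, card_F hF, ← pow_mul]
  generalize MulAction.orbit f.SIsom (Submodule.span F {u, y}) = O at *
  have h1 : 1 ≤ q ^ 2 := Nat.one_le_pow _ _ (by omega)
  have h2 : q ^ 2 ≤ q ^ 4 := Nat.pow_le_pow_right (by omega) (by omega)
  have c1 := card_mul_eq_card_mul (s := univ.filter fun x => f.Q x = 0 ∧ x ≠ 0) (t := O.toFinset)
    (fun x M => x ∈ M) (m := q + 1) (n := q ^ 4 - 1) (fun x hx => ?_) fun M hM => ?_
  · have h3 := su_card_sing hf (k := 2) h4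
    rw [Set.ncard_eq_toFinset_card', Set.toFinset_ofPred] at h3
    zify [h1.trans h2] at c1 ⊢
    rw [h3] at c1
    have : (2 : ℤ) ≤ q := by exact_mod_cast hq
    exact mul_right_cancel₀ (b := (q : ℤ) ^ 4 - 1) (by nlinarith [sq_nonneg ((q : ℤ) ^ 2 - 2)])
      (by rw [← c1]; ring)
  · obtain ⟨hx, hx0⟩ := (mem_filter.1 hx).2
    have c2 := card_mul_eq_card_mul (s := (Cs f x).toFinset)
      (t := O.toFinset.bipartiteAbove (fun x M => x ∈ M) x)
      (fun x M => x ∈ M) (m := 1) (n := q ^ 4 - q ^ 2) (fun z hz => ?_) fun M hM => ?_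
    · have h3 := (su4_counts hf h4 hx hx0).1
      rw [Set.ncard_eq_toFinset_card'] at h3
      zify [h2] at c2 ⊢
      rw [h3] at c2
      have : (2 : ℤ) ≤ q := by exact_mod_cast hq
      exact mul_right_cancel₀ (b := (q : ℤ) ^ 4 - q ^ 2)
        (by nlinarith [sq_nonneg ((q : ℤ) ^ 2 - 2)]) (by rw [← c2]; ring)
    · rw [Set.mem_toFinset] at hz
      refine card_eq_one.2 ⟨Submodule.span F {x, z}, eq_singleton_iff_unique_mem.2 ⟨?_, ?_⟩⟩
      · simp [o1 x hx hx0 z hz, Submodule.mem_span_of_mem]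
      · simp only [mem_bipartiteAbove, Set.mem_toFinset]
        rintro M ⟨⟨h3, h5⟩, h6⟩
        refine (Submodule.eq_of_le_of_finrank_eq ?_ ?_).symm
        · rw [Submodule.span_le]; rintro _ (rfl | rfl) <;> assumption
        · rw [(o2 _ (o1 x hx hx0 z hz)).1, (o2 M h3).1]
    · simp only [mem_bipartiteAbove, Set.mem_toFinset] at hM
      have e : (univ.filter (· ∈ F ∙ x)).card = q ^ 2 := by
        rw [← card_F hF, ← ncard_span (F := F) hx0, Set.ncard_eq_toFinset_card']
        congr 1; ext; simp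
      rw [← o3 M hM.1, ← e, ← card_sdiff_of_subset fun a => by
        simpa using fun h => (Submodule.span_singleton_le_iff_mem x M).2 hM.2 h]
      congr 1; ext a
      simp only [mem_bipartiteBelow, Set.mem_toFinset, mem_sdiff, mem_filter, mem_univ, true_and]
      exact ⟨fun h => ⟨h.2, h.1.2.2⟩, fun h =>
        ⟨⟨((o2 M hM.1).2 a h.1).2 x hM.2, ((o2 M hM.1).2 a h.1).1, h.2⟩, h.1⟩⟩
  · rw [Set.mem_toFinset] at hM
    rw [← o3 M hM, ← card_erase_of_mem (a := 0) (by simp)]
    congr 1; ext a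
    simp only [mem_bipartiteBelow, mem_filter, mem_univ, true_and, mem_erase]
    exact ⟨fun h => ⟨h.1.2, h.2⟩, fun h => ⟨⟨((o2 M hM).2 a h.2).1, h.1⟩, h.2⟩⟩

end Cfsg.Agent.MI
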